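import Mathlib.Data.ZMod.Basic
import Mathlib.Tactic.Ring
import Mathlib.Tactic.LinearCombination
import Mathlib.Tactic.FinCases
import Mathlib.GroupTheory.PGroup
import Mathlib.GroupTheory.OrderOfElement
import Mathlib.Algebra.Group.MinimalAxioms

/-!
# The group `CG` of order `5 ^ 8` (helper777)

`K = K25 = F_5[w]`, `w ^ 2 = 2`, the field of 25 elements, `cj` the conjugation. `CG` is the set of the quadruples
`(al, ga, de, be)`, the product of the Heisenberg group `N = {(al, ga, de, 0)}` over `K` and of `{(0, 0, 0, be)}`.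
It is isomorphic to `C_P(Z_2(P))` for a Sylow 5-subgroup `P` of the Monster.
-/

set_option autoImplicit false

namespace Cfsg.Agent.H777.M5

/-- the field of 25 elements -/
@[ext] structure K25 where
  re : ZMod 5
  im : ZMod 5
  deriving DecidableEq

namespace K25

/-- pairs -/
def equivProd : K25 ≃ ZMod 5 × ZMod 5 where
  toFun x := (x.re, x.im)
  invFun p := ⟨p.1, p.2⟩
  left_inv _ := rfl
  right_inv _ := rfl

instance fintypeK : Fintype K25 := Fintype.ofEquiv _ equivProd.symm

instance zeroK : Zero K25 := ⟨⟨0, 0⟩⟩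
instance oneK : One K25 := ⟨⟨1, 0⟩⟩
instance addK : Add K25 := ⟨fun x y => ⟨x.re + y.re, x.im + y.im⟩⟩
instance negK : Neg K25 := ⟨fun x => ⟨-x.re, -x.im⟩⟩
instance subK : Sub K25 := ⟨fun x y => ⟨x.re - y.re, x.im - y.im⟩⟩
instance mulK : Mul K25 := ⟨fun x y => ⟨x.re * y.re + 2 * (x.im * y.im), x.re * y.im + x.im * y.re⟩⟩

@[simp] theorem zero_re : (0 : K25).re = 0 := rfl
@[simp] theorem zero_im : (0 : K25).im = 0 := rfl
@[simp] theorem one_re : (1 : K25).re = 1 := rfl
@[simp] theorem one_im : (1 : K25).im = 0 := rfl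
@[simp] theorem add_re (x y : K25) : (x + y).re = x.re + y.re := rfl
@[simp] theorem add_im (x y : K25) : (x + y).im = x.im + y.im := rfl
@[simp] theorem neg_re (x : K25) : (-x).re = -x.re := rfl
@[simp] theorem neg_im (x : K25) : (-x).im = -x.im := rfl
@[simp] theorem sub_re (x y : K25) : (x - y).re = x.re - y.re := rfl
@[simp] theorem sub_im (x y : K25) : (x - y).im = x.im - y.im := rfl
@[simp] theorem mul_re (x y : K25) : (x * y).re = x.re * y.re + 2 * (x.im * y.im) := rfl
@[simp] theorem mul_im (x y : K25) : (x * y).im = x.re * y.im + x.im * y.re := rfl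

instance commRingK : CommRing K25 where
  add_assoc x y z := by ext <;> simp <;> ring
  zero_add x := by ext <;> simp
  add_zero x := by ext <;> simp
  add_comm x y := by ext <;> simp <;> ring
  neg_add_cancel x := by ext <;> simp
  sub_eq_add_neg x y := by ext <;> simp <;> ring
  mul_assoc x y z := by ext <;> simp <;> ring
  one_mul x := by ext <;> simp
  mul_one x := by ext <;> simp
  left_distrib x y z := by ext <;> simp <;> ring
  right_distrib x y z := by ext <;> simp <;> ring
  mul_comm x y := by ext <;> simp <;> ring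
  zero_mul x := by ext <;> simp
  mul_zero x := by ext <;> simp
  nsmul := nsmulRec
  zsmul := zsmulRec

/-- the inverse -/
instance invK : Inv K25 := ⟨fun x => ⟨x.re * (x.re * x.re - 2 * (x.im * x.im))⁻¹, -x.im * (x.re * x.re - 2 * (x.im * x.im))⁻¹⟩⟩

instance nontrivialK : Nontrivial K25 := ⟨0, 1, by decide⟩

theorem mul_inv' : ∀ x : K25, x ≠ 0 → x * x⁻¹ = 1 := by decide +kernel

instance fieldK : Field K25 where
  mul_inv_cancel := mul_inv'
  inv_zero := by decide +kernel
  nnqsmul := _
  nnqsmul_def := fun _ _ => rfl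
  qsmul := _
  qsmul_def := fun _ _ => rfl

theorem card_K : Fintype.card K25 = 25 := by decide +kernel

theorem five_eq : (5 : K25) = 0 := by decide +kernel

/-- the generator `w`, `w ^ 2 = 2` -/
def w : K25 := ⟨0, 1⟩

/-- conjugation `x ↦ x ^ 5` -/
def cj (x : K25) : K25 := ⟨x.re, -x.im⟩

@[simp] theorem cj_re (x : K25) : (cj x).re = x.re := rfl
@[simp] theorem cj_im (x : K25) : (cj x).im = -x.im := rfl
@[simp] theorem cj_cj (x : K25) : cj (cj x) = x := by ext <;> simp
@[simp] theorem cj_add (x y : K25) : cj (x + y) = cj x + cj y := by ext <;> simp; ring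
@[simp] theorem cj_sub (x y : K25) : cj (x - y) = cj x - cj y := by ext <;> simp; ring
@[simp] theorem cj_neg (x : K25) : cj (-x) = -cj x := by ext <;> simp
@[simp] theorem cj_mul (x y : K25) : cj (x * y) = cj x * cj y := by ext <;> simp; ring
@[simp] theorem cj_zero : cj 0 = 0 := by decide
@[simp] theorem cj_one : cj 1 = 1 := by decide
@[simp] theorem cj_pow (x : K25) (n : ℕ) : cj (x ^ n) = cj x ^ n := by
  induction n with
  | zero => simp
  | succ n ih => rw [pow_succ, cj_mul, ih, pow_succ]
@[simp] theorem cj_three : cj 3 = 3 := by decide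
@[simp] theorem cj_two : cj 2 = 2 := by decide

theorem cj_eq_pow : ∀ x : K25, cj x = x ^ 5 := by decide +kernel

end K25

open K25

/-- the group `CG` of order `5 ^ 8` -/
@[ext] structure CG where
  al : K25
  ga : K25
  de : K25
  be : K25
  deriving DecidableEq

namespace CG

/-- quadruples -/
def equivProd : CG ≃ K25 × K25 × K25 × K25 where
  toFun x := (x.al, x.ga, x.de, x.be)
  invFun p := ⟨p.1, p.2.1, p.2.2.1, p.2.2.2⟩
  left_inv _ := rfl
  right_inv _ := rfl

instance fintypeCG : Fintype CG := Fintype.ofEquiv _ equivProd.symm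

instance oneCG : One CG := ⟨⟨0, 0, 0, 0⟩⟩
instance mulCG : Mul CG := ⟨fun x y =>
  ⟨x.al + y.al, x.ga + (y.ga + x.be * cj y.al),
    x.de + (y.de + x.be * y.ga + 3 * cj x.be * y.al ^ 2 + 3 * x.be ^ 2 * cj y.al) + x.al * cj (y.ga + x.be * cj y.al),
    x.be + y.be⟩⟩
instance invCG : Inv CG := ⟨fun x =>
  ⟨-x.al, -x.ga + x.be * cj x.al,
    -x.de + x.al * cj x.ga + x.be * x.ga - 3 * x.be ^ 2 * cj x.al - 3 * cj x.be * x.al ^ 2, -x.be⟩⟩

@[simp] theorem one_al : (1 : CG).al = 0 := rfl
@[simp] theorem one_ga : (1 : CG).ga = 0 := rfl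
@[simp] theorem one_de : (1 : CG).de = 0 := rfl
@[simp] theorem one_be : (1 : CG).be = 0 := rfl
@[simp] theorem mul_al (x y : CG) : (x * y).al = x.al + y.al := rfl
@[simp] theorem mul_ga (x y : CG) : (x * y).ga = x.ga + (y.ga + x.be * cj y.al) := rfl
@[simp] theorem mul_de (x y : CG) : (x * y).de = x.de + (y.de + x.be * y.ga + 3 * cj x.be * y.al ^ 2 +
  3 * x.be ^ 2 * cj y.al) + x.al * cj (y.ga + x.be * cj y.al) := rfl
@[simp] theorem mul_be (x y : CG) : (x * y).be = x.be + y.be := rfl
@[simp] theorem inv_al (x : CG) : (x⁻¹).al = -x.al := rfl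
@[simp] theorem inv_ga (x : CG) : (x⁻¹).ga = -x.ga + x.be * cj x.al := rfl
@[simp] theorem inv_de (x : CG) : (x⁻¹).de = -x.de + x.al * cj x.ga + x.be * x.ga - 3 * x.be ^ 2 * cj x.al -
  3 * cj x.be * x.al ^ 2 := rfl
@[simp] theorem inv_be (x : CG) : (x⁻¹).be = -x.be := rfl

instance groupCG : Group CG := Group.ofLeftAxioms
  (by
    intro x y z
    ext1
    · simp; ring
    · simp; ring
    · simp only [mul_al, mul_ga, mul_de, mul_be, cj_add, cj_mul, cj_cj]
      linear_combination (x.be * y.be * cj z.al - cj x.be * y.al * z.al) * five_eq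
    · simp; ring)
  (by intro x; ext1 <;> simp)
  (by
    intro x
    ext1
    · simp
    · simp; ring
    · simp only [mul_de, inv_al, inv_de, inv_be, cj_add, cj_mul, cj_cj, cj_neg, one_de]
      linear_combination (-(x.al ^ 2 * cj x.be)) * five_eq
    · simp)

end CG

end Cfsg.Agent.H777.M5
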