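import Cfsg.Agent.H777.M5.PGSub
import Cfsg.Agent.H777.M5.MXDef
import Cfsg.Agent.H777.Prune
import Cfsg.Agent.H777.PGrp
import Cfsg.Agent.H802.FusGroup

/-!
# The pruned fusion system on a Sylow 5-subgroup of the Monster (helper777)

`M : MX G`; `f M : PG →* G`, `S M` its range (a Sylow 5-subgroup), `F M` the fusion system of `G` on it, `V M` the image
of `PG.SV`, `E M` the pruned system.
-/

set_option autoImplicit false
set_option linter.unusedSectionVars false

namespace Cfsg.Agent.H777.M5.MX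

open Cfsg Cfsg.FusionSystem Cfsg.Agent.H802 Cfsg.Agent.H777.Prune Cfsg.Agent.H411.M5

variable {G : Type} [Group G] [Finite G] (M : MX G)

instance fact5 : Fact (Nat.Prime 5) := ⟨Nat.prime_five⟩

/-- the embedding -/
def f : PG →* G := PDat.hom M.toPData

theorem f_injective : Function.Injective M.f := PDat.hom_injective M.toPData

theorem f_apply (g : PG) : M.f g = M.w g.v * M.x ^ g.c.val * (M.a ^ g.i.val * M.b ^ g.j.val) := rfl

/-- the Sylow 5-subgroup -/
def S : Subgroup G := M.f.range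

theorem card_S : Nat.card M.S = 5 ^ 9 := PDat.card_range M.toPData

theorem S_isPGroup : IsPGroup 5 M.S := IsPGroup.of_card M.card_S

include M in
theorem factorization_card : (Nat.card G).factorization 5 = 9 := by
  have h1 : 5 ^ 9 ∣ Nat.card G := by rw [← M.card_S]; exact Subgroup.card_subgroup_dvd_card M.S
  have h2 := M.not_dvd
  rw [Nat.prime_five.pow_dvd_iff_le_factorization Nat.card_pos.ne'] at h1 h2
  omega

/-- the Sylow 5-subgroup -/
noncomputable def T : Sylow 5 G := Sylow.ofCard M.S (by rw [M.factorization_card, M.card_S])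

theorem T_coe : (M.T : Subgroup G) = M.S := rfl

/-- the fusion system of `G` -/
def F : FusionSystem M.S := groupFusionSystem M.S

theorem F_sat : M.F.IsSaturated 5 := groupFusionSystem_isSaturated M.T

theorem mem_S {g : PG} : M.f g ∈ M.S := ⟨g, rfl⟩

/-- the pruned subgroup -/
def V : Subgroup G := PG.SV.map M.f

/-- the second centre -/
def L : Subgroup G := PG.SL.map M.f

/-- the normalizer of `V` in `S` -/
def N : Subgroup G := PG.SN.map M.f

/-- the group `5^{1+6}` -/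
def W : Subgroup G := PG.SW.map M.f

theorem map_le_S (H : Subgroup PG) : H.map M.f ≤ M.S := by
  rintro _ ⟨y, -, rfl⟩
  exact M.mem_S

theorem V_le : M.V ≤ M.S := M.map_le_S _

theorem SV_comm : ∀ x ∈ PG.SV, ∀ y ∈ PG.SV, x * y = y * x := by
  rintro x ⟨h1, h2, h3, h4, h5⟩ y ⟨k1, k2, k3, k4, k5⟩
  apply PG.ext
  · funext k
    rw [PG.mul_v, PG.mul_v, Pi.add_apply, Pi.add_apply]
    fin_cases k
    · show x.v 0 + act x.i x.j y.v 0 = y.v 0 + act y.i y.j x.v 0
      rw [act0, act0, h1, h2, h3, h4, h5, k1, k2, k3, k4, k5]; ring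
    · show x.v 1 + act x.i x.j y.v 1 = y.v 1 + act y.i y.j x.v 1
      rw [act1, act1, h1, h2, h3, h4, k1, k2, k3, k4]; ring
    · show x.v 2 + act x.i x.j y.v 2 = y.v 2 + act y.i y.j x.v 2
      rw [act2, act2, h1, h3, k1, k3]; ring
    · show x.v 3 + act x.i x.j y.v 3 = y.v 3 + act y.i y.j x.v 3
      rw [act3, act3, h1, h2, h3, h5, k1, k2, k3, k5]; ring
    · show x.v 4 + act x.i x.j y.v 4 = y.v 4 + act y.i y.j x.v 4
      rw [act4, act4, h1, h2, k1, k2]; ring
    · show x.v 5 + act x.i x.j y.v 5 = y.v 5 + act y.i y.j x.v 5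
      rw [act5, act5, h1, k1]
  · rw [PG.mul_c, PG.mul_c, om, om, act0, act1, act2, act3, act4, act5, act0, act1, act2, act3, act4, act5,
      h1, h2, h3, h4, h5, k1, k2, k3, k4, k5]
    linear_combination 6 * (-x.j * y.i + x.j ^ 2 * y.i + x.i * y.j - x.i * y.j ^ 2) * Cfsg.Agent.H411.M5.h5
  · rw [PG.mul_i, PG.mul_i, add_comm]
  · rw [PG.mul_j, PG.mul_j, add_comm]

theorem V_comm : ∀ x ∈ M.V, ∀ y ∈ M.V, x * y = y * x := by
  rintro _ ⟨x, hx, rfl⟩ _ ⟨y, hy, rfl⟩
  rw [← map_mul, ← map_mul, SV_comm x hx y hy]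

/-- two elements of `PG` which do not commute -/
theorem nab : (⟨0, 0, 1, 0⟩ : PG) * ⟨Pi.single 5 1, 0, 0, 0⟩ ≠ ⟨Pi.single 5 1, 0, 0, 0⟩ * ⟨0, 0, 1, 0⟩ := by
  decide +kernel

theorem not_below_of_nab {P : Subgroup G} {x y : G} (hx : x ∈ P) (hy : y ∈ P)
    (h : x * y ≠ y * x) : ¬ Below M.F M.V P := fun hb => h (hb.comm M.V_comm x hx y hy)

theorem hnS : ¬ Below M.F M.V M.S := by
  refine M.not_below_of_nab (M.mem_S (g := ⟨0, 0, 1, 0⟩)) (M.mem_S (g := ⟨Pi.single 5 1, 0, 0, 0⟩)) ?_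
  rw [← map_mul, ← map_mul]
  exact fun h => nab (M.f_injective h)

/-- the pruned system -/
def E : FusionSystem M.S := prune M.F M.V M.hnS

end Cfsg.Agent.H777.M5.MX
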