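import Cfsg.Agent.H961.M5.T3
import Cfsg.Agent.S1701

/-!
# The centralizers of the elements of order 5 of the Monster which commute with a conjugate of `z` (helper777)
-/

set_option autoImplicit false
set_option maxRecDepth 100000

namespace Cfsg.Agent.H777.M5

open Subgroup Cfsg
open Cfsg.Agent.MonsterU Cfsg.Agent.MFive
open Cfsg.Agent.LThreeMB (fr XX KChart.Cent KChart.pi KChart.chart)
open Cfsg.Agent.MonsterX Cfsg.Agent.MonsterX.InstData
open Cfsg.Agent.MFive.Row (hc)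

/-- the type of `HN` -/
theorem dvd_of_isoHN {y : ↥InstData.M.G} (hy : orderOf y = 5) (h : Spor.IsoHN (XX y)) :
    5 ^ 7 ∣ Nat.card ↥(centralizer ({y} : Set ↥InstData.M.G)) := by
  have hfin := MFive.Row.finite_model
  obtain ⟨e⟩ := id h
  have h1 : Nat.card (XX y) = 273030912000000 := by
    rw [Nat.card_congr e.toEquiv, Cfsg.Agent.S1701.result.2]
  have h2 : Nat.card ↥(Cfsg.Agent.LThreeMB.Zx y) = 5 := by
    rw [Cfsg.Agent.LThreeMB.Zx, Nat.card_zpowers, ← Subgroup.orderOf_coe]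
    exact hy
  have h3 : Nat.card ↥(centralizer ({y} : Set ↥InstData.M.G)) = Nat.card (XX y) *
      Nat.card ↥(Cfsg.Agent.LThreeMB.Zx y) := Subgroup.card_eq_card_quotient_mul_card_subgroup _
  rw [h3, h1, h2]
  norm_num

/-- **`BIG`** -/
theorem big {x₁ : centralizer ({KDone.K.z} : Set ↥InstData.M.G)} (hx : orderOf x₁ = 5)
    (hfr : fr (KChart.pi hc x₁) = 1)
    (h7 : 5 ^ 7 ∣ Nat.card ↥(centralizer ({(x₁ : ↥InstData.M.G)} : Set ↥InstData.M.G))) {y : ↥InstData.M.G}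
    (hy : orderOf y = 5) (hex : ∃ g : ↥InstData.M.G, (g * KDone.K.z * g⁻¹) * y = y * (g * KDone.K.z * g⁻¹)) :
    5 ^ 7 ∣ Nat.card ↥(centralizer ({y} : Set ↥InstData.M.G)) := by
  have hfin := MFive.Row.finite_model
  rcases MFive.Row.cases_model (CpAutBFive.Closed.coFive Cfsg.Agent.H961.M5.T3.hJ) CpAutBFive.Closed.hnEight hy hex with
    h | ⟨x₀, k, i, hx₀, hfr₀, hk⟩
  · exact dvd_of_isoHN hy h
  · have h1 := BpSpor.M5.card_eq_zero_rank (KChart.chart KDone.lft hc) Nat.prime_five (by decide)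
      (Cfsg.Agent.CoFive.Ranks.wclassOf 1) hx₀ hfr₀ hx hfr
    obtain ⟨e⟩ := exists_cent_equiv Nat.prime_five (x := y) (y := (x₀ : ↥InstData.M.G)) hy
      (by rw [Subgroup.orderOf_coe, hx₀]) hk
    rw [← Nat.card_congr e.toEquiv, h1]
    exact h7

end Cfsg.Agent.H777.M5
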