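import Cfsg.Agent.H411.M5.Cent

/-!
# Subgroups of `PG` (helper777)

* `SW` : `5^{1+6}` (`i = j = 0`); `SL` : the second centre (order `5^2`); `SC` its centralizer (`v 5 = 0`, order `5^8`);
* `SA` : the derived subgroup of `SC` (order `5^4`);
* `SV` : the abelian subgroup of order `5^4` which is pruned; `SN = SV * SA` its normalizer (order `5^6`).
-/

set_option autoImplicit false

namespace Cfsg.Agent.H777.M5

open Cfsg.Agent.H411.M5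

namespace PG

/-- `5^{1+6}` -/
def SW : Subgroup PG where
  carrier := {y | y.i = 0 ∧ y.j = 0}
  one_mem' := ⟨rfl, rfl⟩
  mul_mem' := by
    rintro x y ⟨h1, h2⟩ ⟨h3, h4⟩
    exact ⟨by rw [mul_i, h1, h3, add_zero], by rw [mul_j, h2, h4, add_zero]⟩
  inv_mem' := by
    rintro x ⟨h1, h2⟩
    exact ⟨by rw [inv_i, h1, neg_zero], by rw [inv_j, h2, neg_zero]⟩

theorem mem_SW {y : PG} : y ∈ SW ↔ y.i = 0 ∧ y.j = 0 := Iff.rfl

/-- the centralizer of the second centre -/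
def SC : Subgroup PG where
  carrier := {y | y.v 5 = 0}
  one_mem' := rfl
  mul_mem' := by
    rintro x y (h1 : x.v 5 = 0) (h2 : y.v 5 = 0)
    show (x * y).v 5 = 0
    rw [mul_v, Pi.add_apply, act5, h1, h2, add_zero]
  inv_mem' := by
    rintro x (h1 : x.v 5 = 0)
    show (x⁻¹).v 5 = 0
    rw [inv_v, Pi.neg_apply, act5, h1, neg_zero]

theorem mem_SC {y : PG} : y ∈ SC ↔ y.v 5 = 0 := Iff.rfl

/-- the second centre -/
def SL : Subgroup PG where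
  carrier := {y | y.i = 0 ∧ y.j = 0 ∧ y.v 1 = 0 ∧ y.v 2 = 0 ∧ y.v 3 = 0 ∧ y.v 4 = 0 ∧ y.v 5 = 0}
  one_mem' := ⟨rfl, rfl, rfl, rfl, rfl, rfl, rfl⟩
  mul_mem' := by
    rintro x y ⟨h1, h2, h3, h4, h5, h6, h7⟩ ⟨k1, k2, k3, k4, k5, k6, k7⟩
    refine ⟨?_, ?_, ?_, ?_, ?_, ?_, ?_⟩ <;>
      simp [act1, act2, act3, act4, act5, h1, h2, h3, h4, h5, h6, h7, k1, k2, k3, k4, k5, k6, k7]
  inv_mem' := by
    rintro x ⟨h1, h2, h3, h4, h5, h6, h7⟩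
    refine ⟨?_, ?_, ?_, ?_, ?_, ?_, ?_⟩ <;>
      simp [act1, act2, act3, act4, act5, h1, h2, h3, h4, h5, h6, h7]

theorem mem_SL {y : PG} : y ∈ SL ↔ y.i = 0 ∧ y.j = 0 ∧ y.v 1 = 0 ∧ y.v 2 = 0 ∧ y.v 3 = 0 ∧ y.v 4 = 0 ∧ y.v 5 = 0 :=
  Iff.rfl

/-- the derived subgroup of `SC` -/
def SA : Subgroup PG where
  carrier := {y | y.i = 0 ∧ y.j = 0 ∧ y.v 2 = 0 ∧ y.v 4 = 0 ∧ y.v 5 = 0}
  one_mem' := ⟨rfl, rfl, rfl, rfl, rfl⟩
  mul_mem' := by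
    rintro x y ⟨h1, h2, h3, h4, h5⟩ ⟨k1, k2, k3, k4, k5⟩
    refine ⟨?_, ?_, ?_, ?_, ?_⟩ <;>
      simp [act2, act4, act5, h1, h2, h3, h4, h5, k1, k2, k3, k4, k5]
  inv_mem' := by
    rintro x ⟨h1, h2, h3, h4, h5⟩
    refine ⟨?_, ?_, ?_, ?_, ?_⟩ <;>
      simp [act2, act4, act5, h1, h2, h3, h4, h5]

theorem mem_SA {y : PG} : y ∈ SA ↔ y.i = 0 ∧ y.j = 0 ∧ y.v 2 = 0 ∧ y.v 4 = 0 ∧ y.v 5 = 0 := Iff.rfl

/-- the normalizer of `SV` -/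
def SN : Subgroup PG where
  carrier := {y | y.v 5 = 0 ∧ y.v 4 = 2 * y.i ∧ y.v 2 = y.j}
  one_mem' := ⟨rfl, by simp, rfl⟩
  mul_mem' := by
    rintro x y ⟨h1, h2, h3⟩ ⟨k1, k2, k3⟩
    refine ⟨?_, ?_, ?_⟩
    · simp [act5, h1, k1]
    · simp [act4, h2, k1, k2]; ring
    · simp [act2, h3, k1, k3]
  inv_mem' := by
    rintro x ⟨h1, h2, h3⟩
    refine ⟨?_, ?_, ?_⟩
    · simp [act5, h1]
    · simp [act4, h1, h2]
    · simp [act2, h1, h3]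

theorem mem_SN {y : PG} : y ∈ SN ↔ y.v 5 = 0 ∧ y.v 4 = 2 * y.i ∧ y.v 2 = y.j := Iff.rfl

/-- the pruned subgroup -/
def SV : Subgroup PG where
  carrier := {y | y.v 5 = 0 ∧ y.v 4 = 2 * y.i ∧ y.v 2 = y.j ∧ y.v 1 = 2 * y.j - 2 * y.j ^ 2 - y.i ^ 2 ∧
    y.v 3 = -y.i + 2 * (y.i * y.j)}
  one_mem' := ⟨rfl, by simp, rfl, by simp, by simp⟩
  mul_mem' := by
    rintro x y ⟨h1, h2, h3, h4, h5⟩ ⟨k1, k2, k3, k4, k5⟩
    refine ⟨?_, ?_, ?_, ?_, ?_⟩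
    · simp [act5, h1, k1]
    · simp [act4, h2, k1, k2]; ring
    · simp [act2, h3, k1, k3]
    · simp only [mul_v, Pi.add_apply, act1, mul_i, mul_j, h4, k1, k2, k3, k4]
      linear_combination (x.j * y.j) * Cfsg.Agent.H411.M5.h5
    · simp only [mul_v, Pi.add_apply, act3, mul_i, mul_j, h5, k1, k2, k3, k5]
      ring
  inv_mem' := by
    rintro x ⟨h1, h2, h3, h4, h5⟩
    refine ⟨?_, ?_, ?_, ?_, ?_⟩
    · simp [act5, h1]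
    · simp [act4, h1, h2]
    · simp [act2, h1, h3]
    · simp only [inv_v, Pi.neg_apply, act1, inv_i, inv_j, h1, h2, h3, h4]
      linear_combination (x.j ^ 2) * Cfsg.Agent.H411.M5.h5
    · simp only [inv_v, Pi.neg_apply, act3, inv_i, inv_j, h1, h2, h3, h5]
      ring

theorem mem_SV {y : PG} : y ∈ SV ↔ y.v 5 = 0 ∧ y.v 4 = 2 * y.i ∧ y.v 2 = y.j ∧
    y.v 1 = 2 * y.j - 2 * y.j ^ 2 - y.i ^ 2 ∧ y.v 3 = -y.i + 2 * (y.i * y.j) := Iff.rfl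

end PG

end Cfsg.Agent.H777.M5
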