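import Cfsg.Agent.H961.M5.T3
import Cfsg.Agent.H961.M5.C
import Cfsg.Agent.H415.M5.Syl
import Cfsg.Agent.H211.M5.Coord
import Cfsg.Agent.H255.M5D.Main
import Cfsg.Agent.H411.M5.Cent
import Cfsg.Agent.H411.M5.Syl
import Cfsg.Agent.MonsterP.Equiv

/-!
# The Sylow 5-subgroup of the Monster is `PG` (helper777)
-/

set_option autoImplicit false

namespace Cfsg.Agent.H777.M5

open Cfsg Cfsg.Agent.MonsterX

theorem finite_MG : Finite ↥InstData.M.G := Cfsg.Agent.MFive.Row.finite_model

/-- **The data of `PG` in the model of the Monster.** -/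
theorem exists_data : ∃ _ : PData ↥InstData.M.G, ¬ 5 ^ 10 ∣ Nat.card ↥InstData.M.G := by
  have := finite_MG
  obtain ⟨S, hx, hu, hz, h0, h1⟩ := Cfsg.Agent.H961.M5.T3.exists_sit_of_syl
    (fun s hs hf => Cfsg.Agent.H415.M5.sylow_five hs hf)
  obtain ⟨W⟩ := Cfsg.Agent.H211.M5.exists_wout S
  obtain ⟨R⟩ := Cfsg.Agent.H961.M5.C.exists_rel S hx hu hz h0 h1
  obtain ⟨P, -⟩ := Cfsg.Agent.H255.M5D.exists_pdata S W R
  exact ⟨P, S.not_dvd⟩

/-- **A Sylow 5-subgroup of the Monster is isomorphic to `PG`.** -/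
theorem exists_equiv_PG (T : Sylow 5 Spor.Monster) : Nonempty (PG ≃* ↥(T : Subgroup Spor.Monster)) := by
  have := finite_MG
  obtain ⟨e⟩ := Cfsg.Agent.MonsterP.Equiv.equiv
  obtain ⟨P, h⟩ := exists_data
  have : Finite Spor.Monster := Finite.of_equiv _ e.symm.toEquiv
  have : Fact (Nat.Prime 5) := ⟨Nat.prime_five⟩
  let T' : Sylow 5 ↥InstData.M.G := Sylow.ofCard ((T : Subgroup Spor.Monster).map e.toMonoidHom) (by
    rw [← Nat.card_congr ((T : Subgroup Spor.Monster).equivMapOfInjective e.toMonoidHom e.injective).toEquiv,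
      ← Nat.card_congr e.toEquiv]
    exact T.card_eq_multiplicity)
  obtain ⟨e'⟩ := Cfsg.Agent.H411.M5.exists_equiv_sylow P h T'
  exact ⟨e'.trans ((T : Subgroup Spor.Monster).equivMapOfInjective e.toMonoidHom e.injective).symm⟩

theorem upper_map {A B : Type*} [Group A] [Group B] (e : A ≃* B) :
    (Subgroup.upperCentralSeries A 2).map e.toMonoidHom = Subgroup.upperCentralSeries B 2 := by
  ext y
  constructor
  · rintro ⟨x, hx, rfl⟩
    have h := Subgroup.comap_upperCentralSeries e 2
    rw [SetLike.mem_coe, ← h] at hx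
    exact hx
  · intro hy
    refine ⟨e.symm y, ?_, e.apply_symm_apply y⟩
    have h := Subgroup.comap_upperCentralSeries e 2
    rw [SetLike.mem_coe, ← h]
    show e (e.symm y) ∈ Subgroup.upperCentralSeries B 2
    rw [e.apply_symm_apply]
    exact hy

/-- **The centralizer of the second centre is isomorphic to `CG`.** -/
theorem exists_equiv_cent {P : Type*} [Group P] (e : PG ≃* P) :
    Nonempty (CG ≃* ↥(Subgroup.centralizer ((Subgroup.upperCentralSeries P 2 : Subgroup P) : Set P))) := by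
  obtain ⟨e1⟩ := Cfsg.Agent.H411.M5.exists_equiv_CG
  have h : (Subgroup.centralizer ((Subgroup.upperCentralSeries PG 2 : Subgroup PG) : Set PG)).map e.toMonoidHom =
      Subgroup.centralizer ((Subgroup.upperCentralSeries P 2 : Subgroup P) : Set P) := by
    rw [← upper_map e]
    ext y
    simp only [Subgroup.mem_map, Subgroup.mem_centralizer_iff]
    constructor
    · rintro ⟨x, hx, rfl⟩ z hz
      obtain ⟨z', hz', rfl⟩ := hz
      show e z' * e x = e x * e z'
      rw [← map_mul, ← map_mul, hx z' hz']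
    · intro hy
      refine ⟨e.symm y, fun z hz => ?_, e.apply_symm_apply y⟩
      apply e.injective
      rw [map_mul, map_mul, e.apply_symm_apply]
      exact hy _ ⟨z, hz, rfl⟩
  exact ⟨e1.trans (((Subgroup.centralizer ((Subgroup.upperCentralSeries PG 2 : Subgroup PG) : Set PG)).equivMapOfInjective
    e.toMonoidHom e.injective).trans (MulEquiv.subgroupCongr h))⟩

end Cfsg.Agent.H777.M5
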